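import Mathlib
import Cfsg.Prelude.Def_KGroupFacts
import Cfsg.Agent.ExtraAut.NonSplit
import Cfsg.Agent.Forms.Matrix

/-!
The outer automorphism group of an extraspecial 2-group is the orthogonal group of its squaring form.
-/

set_option autoImplicit false

open QuadraticMap Matrix

namespace CfsgLib.ExtraQuad

variable {E : Type*} [Group E]

/-- `ZMod 2` into the centre. -/
def eps (z : E) (a : ZMod 2) : E := if a = 0 then 1 else z

theorem z2 : ∀ a : ZMod 2, a = 0 ∨ a = 1 := by decide

theorem z2_neg : ∀ a : ZMod 2, -a = a := by decide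

variable {z : E}

theorem eps_zero : eps z 0 = 1 := rfl

theorem eps_one : eps z 1 = z := if_neg (by decide)

theorem eps_add (e : ExtraAut.Data z) (a b : ZMod 2) : eps z (a + b) = eps z a * eps z b := by
  rcases z2 a with rfl | rfl <;> rcases z2 b with rfl | rfl <;>
    simp [eps_zero, eps_one, e.sq, show (1 : ZMod 2) + 1 = 0 from rfl]

theorem eps_comm (e : ExtraAut.Data z) (a : ZMod 2) (x : E) : x * eps z a = eps z a * x := by
  rcases z2 a with rfl | rfl
  · simp [eps_zero]
  · rw [eps_one, e.central]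

theorem eps_injective (e : ExtraAut.Data z) : Function.Injective (eps z) := by
  intro a b h
  rcases z2 a with rfl | rfl <;> rcases z2 b with rfl | rfl
  · rfl
  · exact absurd (h.symm.trans eps_zero) (by rw [eps_one]; exact e.ne_one)
  · exact absurd (h.trans eps_zero) (by rw [eps_one]; exact e.ne_one)
  · rfl

/-- A coordinate map onto a vector space over two elements with kernel the centre. -/
structure Coord (z : E) (W : Type*) [AddCommGroup W] where
  π : E → W
  map_mul : ∀ x y, π (x * y) = π x + π y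
  surj : Function.Surjective π
  zero_iff : ∀ x, π x = 0 ↔ x = 1 ∨ x = z

variable {W : Type*} [AddCommGroup W]

namespace Coord

variable (P : Coord z W)

theorem map_one : P.π 1 = 0 := (P.zero_iff 1).2 (Or.inl rfl)

theorem map_z : P.π z = 0 := (P.zero_iff z).2 (Or.inr rfl)

theorem map_eps (a : ZMod 2) : P.π (eps z a) = 0 := by
  rcases z2 a with rfl | rfl
  · rw [eps_zero, P.map_one]
  · rw [eps_one, P.map_z]

theorem map_inv (x : E) : P.π x⁻¹ = -P.π x :=
  eq_neg_of_add_eq_zero_left (by rw [← P.map_mul, inv_mul_cancel, P.map_one])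

theorem exists_eps {x y : E} (h : P.π x = P.π y) : ∃ a, y = x * eps z a := by
  rcases (P.zero_iff (x⁻¹ * y)).1 (by rw [P.map_mul, P.map_inv, h, neg_add_cancel]) with h' | h'
  · exact ⟨0, by rw [eps_zero, mul_one]; exact (inv_mul_eq_one.1 h').symm⟩
  · exact ⟨1, by rw [eps_one, ← h', mul_inv_cancel_left]⟩

end Coord

variable [Module (ZMod 2) W]

theorem exists_form (e : ExtraAut.Data z) (P : Coord z W) :
    ∃ Q : QuadraticForm (ZMod 2) W,
      (∀ x, x * x = eps z (Q (P.π x))) ∧ (∀ x y, x * y = y * x * eps z (polar Q (P.π x) (P.π y))) ∧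
        (polarBilin Q).Nondegenerate := by
  classical
  let s := Function.surjInv P.surj
  have hs : ∀ v, P.π (s v) = v := Function.surjInv_eq P.surj
  let f : W → ZMod 2 := fun v => if s v * s v = 1 then 0 else 1
  have hsq : ∀ x, x * x = eps z (f (P.π x)) := fun x => by
    obtain ⟨a, ha⟩ := P.exists_eps (hs (P.π x)).symm
    have : s (P.π x) * s (P.π x) = x * x := by
      rw [ha, ← mul_assoc, mul_assoc x (eps z a) x, ← eps_comm e, ← mul_assoc, mul_assoc (x * x), ← eps_add e,
        CharTwo.add_self_eq_zero, eps_zero, mul_one]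
    rw [← this]
    rcases e.square (s (P.π x)) with h | h
    · simp [f, h, eps_zero]
    · simp [f, h, e.ne_one, eps_one]
  have hbr : ∀ x y, x * y = y * x * eps z (polar f (P.π x) (P.π y)) := fun x y => by
    obtain ⟨c, hc⟩ : ∃ c, x * y = y * x * eps z c := by
      rcases e.bracket x y with h | h
      · exact ⟨0, by rw [eps_zero, mul_one, h]⟩
      · exact ⟨1, by rw [eps_one, h]⟩
    have h1 : x * y * (x * y) = x * x * (y * y) * eps z c := by
      have hyx : y * x = x * y * eps z c := by
        rw [hc, mul_assoc, ← eps_add e, CharTwo.add_self_eq_zero, eps_zero, mul_one]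
      calc x * y * (x * y) = x * (y * x) * y := by group
        _ = x * x * y * (eps z c * y) := by rw [hyx]; group
        _ = x * x * (y * y) * eps z c := by rw [← eps_comm e c y]; group
    rw [hsq, hsq, hsq, ← eps_add e, ← eps_add e, P.map_mul] at h1
    have h2 := eps_injective e h1
    rw [hc]
    congr 2
    simp only [polar]
    linear_combination -h2
  have hadd : ∀ u u' v, polar f (u + u') v = polar f u v + polar f u' v := fun u u' v => by
    obtain ⟨x, rfl⟩ := P.surj u
    obtain ⟨x', rfl⟩ := P.surj u'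
    obtain ⟨y, rfl⟩ := P.surj v
    rw [← P.map_mul]
    apply eps_injective e
    apply mul_left_cancel (a := y * (x * x'))
    rw [← hbr, eps_add e]
    calc x * x' * y = x * (x' * y) := mul_assoc _ _ _
      _ = x * y * x' * eps z (polar f (P.π x') (P.π y)) := by rw [hbr x' y]; group
      _ = y * x * (eps z (polar f (P.π x) (P.π y)) * x') * eps z (polar f (P.π x') (P.π y)) := by
        rw [hbr x y]; group
      _ = _ := by rw [← eps_comm e _ x']; group
  have hf0 : f 0 = 0 := eps_injective e (by rw [← P.map_one, ← hsq, mul_one, eps_zero])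
  have hsmul : ∀ (a : ZMod 2) u, f (a • u) = (a * a) • f u := fun a u => by
    rcases z2 a with rfl | rfl <;> simp [hf0]
  have hpsmul : ∀ (a : ZMod 2) u v, polar f (a • u) v = a • polar f u v := fun a u v => by
    rcases z2 a with rfl | rfl <;> simp [polar, hf0]
  refine ⟨QuadraticMap.ofPolar f hsmul hadd hpsmul, hsq, hbr, Forms.nondegenerate_iff.2 fun v hv => ?_⟩
  obtain ⟨x, rfl⟩ := P.surj v
  refine (P.zero_iff x).2 (e.center x fun y => ?_)
  have h := hbr x y
  rw [show polar f (P.π x) (P.π y) = 0 from hv _, eps_zero, mul_one] at h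
  exact h.symm

variable {ι : Type} [Fintype ι] [DecidableEq ι]

/-- The main theorem. -/
theorem nonempty_out [Finite E] (e : ExtraAut.Data z) (P : Coord z (ι → ZMod 2))
    (Q : QuadraticForm (ZMod 2) (ι → ZMod 2)) (hsq : ∀ x, x * x = eps z (Q (P.π x)))
    (hbr : ∀ x y, x * y = y * x * eps z (polar Q (P.π x) (P.π y)))
    (hQ : (polarBilin Q).Nondegenerate) :
    Nonempty (Cfsg.Out E ≃* Cfsg.isometryGroup (ZMod 2) ⇑Q) := by
  classical
  haveI : Fact (Nat.Prime 2) := ⟨Nat.prime_two⟩
  have hz : ∀ φ : MulAut E, φ z = z := fun φ => by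
    refine (e.center (φ z) fun x => ?_).resolve_left fun h => e.ne_one (φ.injective (h.trans (map_one φ).symm))
    obtain ⟨y, rfl⟩ := φ.surjective x
    rw [← map_mul, ← map_mul, e.central]
  have heps : ∀ (φ : MulAut E) a, φ (eps z a) = eps z a := fun φ a => by
    rcases z2 a with rfl | rfl
    · rw [eps_zero, map_one]
    · rw [eps_one, hz]
  let s := Function.surjInv P.surj
  have hs : ∀ v, P.π (s v) = v := Function.surjInv_eq P.surj
  have hwd : ∀ (φ : MulAut E) x, P.π (φ (s (P.π x))) = P.π (φ x) := fun φ x => by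
    obtain ⟨a, ha⟩ := P.exists_eps (hs (P.π x)).symm
    rw [ha, map_mul, heps, P.map_mul, P.map_eps, add_zero]
  let L : MulAut E → ((ι → ZMod 2) →ₗ[ZMod 2] (ι → ZMod 2)) := fun φ =>
    AddMonoidHom.toZModLinearMap 2 (AddMonoidHom.mk' (fun v => P.π (φ (s v))) fun u v => by
      have h := hwd φ (s u * s v)
      rw [P.map_mul, hs, hs] at h
      rw [h, map_mul, P.map_mul])
  have hL : ∀ φ x, L φ (P.π x) = P.π (φ x) := hwd
  let T₀ : MulAut E →* Matrix ι ι (ZMod 2) :=
    { toFun := fun φ => LinearMap.toMatrix' (L φ)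
      map_one' := Matrix.ext_iff_mulVec.2 fun v => by
        obtain ⟨x, rfl⟩ := P.surj v
        rw [LinearMap.toMatrix'_mulVec, hL, Matrix.one_mulVec, MulAut.one_apply]
      map_mul' := fun φ ψ => Matrix.ext_iff_mulVec.2 fun v => by
        obtain ⟨x, rfl⟩ := P.surj v
        rw [LinearMap.toMatrix'_mulVec, hL, ← Matrix.mulVec_mulVec]
        simp only [LinearMap.toMatrix'_mulVec, hL, MulAut.mul_apply] }
  have hT : ∀ φ x, (T₀.toHomUnits φ).1 *ᵥ P.π x = P.π (φ x) := fun φ x =>
    (LinearMap.toMatrix'_mulVec _ _).trans (hL φ x)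
  have hiso : ∀ φ, T₀.toHomUnits φ ∈ Cfsg.isometryGroup (ZMod 2) ⇑Q := fun φ =>
    Forms.mem_isometryGroup.2 fun v => by
      obtain ⟨x, rfl⟩ := P.surj v
      apply eps_injective e
      rw [hT, ← hsq, ← map_mul, hsq x, heps]
  let Φ : MulAut E →* Cfsg.isometryGroup (ZMod 2) ⇑Q := T₀.toHomUnits.codRestrict _ hiso
  have hker : Φ.ker = Cfsg.Inn E := by
    ext φ
    constructor
    · intro hφ
      have h1 : ∀ x, P.π (φ x) = P.π x := fun x => by
        have h := hT φ x
        rw [show T₀.toHomUnits φ = 1 from congrArg Subtype.val (MonoidHom.mem_ker.1 hφ), Units.val_one,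
          Matrix.one_mulVec] at h
        exact h.symm
      choose lam hlam using fun x => P.exists_eps (h1 x).symm
      have hmul : ∀ x y, lam (x * y) = lam x + lam y := fun x y => by
        apply eps_injective e
        apply mul_left_cancel (a := x * y)
        rw [← hlam, map_mul, hlam x, hlam y, eps_add e]
        calc x * eps z (lam x) * (y * eps z (lam y)) = x * (eps z (lam x) * y) * eps z (lam y) := by group
          _ = _ := by rw [← eps_comm e _ y]; group
      have hzero : ∀ a, lam (eps z a) = 0 := fun a => by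
        apply eps_injective e
        apply mul_left_cancel (a := eps z a)
        rw [← hlam, heps, eps_zero, mul_one]
      have hwd' : ∀ x, lam (s (P.π x)) = lam x := fun x => by
        obtain ⟨a, ha⟩ := P.exists_eps (hs (P.π x)).symm
        rw [ha, hmul, hzero, add_zero]
      let μ : (ι → ZMod 2) →ₗ[ZMod 2] ZMod 2 :=
        AddMonoidHom.toZModLinearMap 2 (AddMonoidHom.mk' (fun v => lam (s v)) fun u v => by
          have h := hwd' (s u * s v)
          rw [P.map_mul, hs, hs] at h
          rw [h, hmul])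
      obtain ⟨a, ha⟩ := Forms.exists_dual_vec hQ μ
      refine ⟨s a, MulEquiv.ext fun x => ?_⟩
      show s a * x * (s a)⁻¹ = φ x
      rw [mul_inv_eq_iff_eq_mul, hlam x, hbr, hs, ha, show μ (P.π x) = lam x from hwd' x,
        mul_assoc x (eps z (lam x)), ← eps_comm e, ← mul_assoc]
    · rintro ⟨a, rfl⟩
      refine MonoidHom.mem_ker.2 (Subtype.ext (Units.ext (Matrix.ext_iff_mulVec.2 fun v => ?_)))
      obtain ⟨x, rfl⟩ := P.surj v
      show (T₀.toHomUnits (MulAut.conj a)).1 *ᵥ P.π x = _
      rw [hT, OneMemClass.coe_one, Units.val_one, Matrix.one_mulVec, MulAut.conj_apply, P.map_mul, P.map_mul, P.map_inv]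
      abel
  have hsurj : Function.Surjective Φ := by
    intro g
    let G : (ι → ZMod 2) →ₗ[ZMod 2] (ι → ZMod 2) := Matrix.toLin' ((g : GL ι (ZMod 2)) : Matrix ι ι (ZMod 2))
    have hG : ∀ v, G v = ((g : GL ι (ZMod 2)) : Matrix ι ι (ZMod 2)) *ᵥ v := fun v => Matrix.toLin'_apply _ _
    have hGQ : ∀ v, Q (G v) = Q v := fun v => by rw [hG]; exact Forms.mem_isometryGroup.1 g.2 v
    let H : Subgroup (E × E) :=
      { carrier := {p | P.π p.2 = G (P.π p.1)}
        one_mem' := by show P.π 1 = G (P.π 1); rw [P.map_one, map_zero]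
        mul_mem' := fun {p q} hp hq => by
          show P.π (p.2 * q.2) = G (P.π (p.1 * q.1))
          rw [P.map_mul, P.map_mul, map_add, hp, hq]
        inv_mem' := fun {p} hp => by
          show P.π p.2⁻¹ = G (P.π p.1⁻¹)
          rw [P.map_inv, P.map_inv, map_neg, hp] }
    let D : ZMod 2 → E × E := fun a => (eps z a, eps z a)
    have hDH : ∀ a, D a ∈ H := fun a => by show P.π _ = G (P.π _); rw [P.map_eps, map_zero]
    have hw : (z, (1 : E)) ∈ H := by show P.π _ = G (P.π _); rw [P.map_one, P.map_z, map_zero]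
    let S : Set (Subgroup (E × E)) := {K | K ≤ H ∧ (∀ a, D a ∈ K) ∧ (z, 1) ∉ K}
    have hS : S.Nonempty := by
      refine ⟨Subgroup.closure (Set.range D), (Subgroup.closure_le _).2 (Set.range_subset_iff.2 hDH),
        fun a => Subgroup.subset_closure ⟨a, rfl⟩, fun h => ?_⟩
      have hle : Subgroup.closure (Set.range D) ≤
          ((MonoidHom.fst E E).eqLocus (MonoidHom.snd E E)) := (Subgroup.closure_le _).2 (by
        rintro _ ⟨a, rfl⟩; rfl)
      exact e.ne_one (hle h)
    obtain ⟨K, ⟨hKH, hKD, hKw⟩, hmax⟩ := (Set.toFinite S).exists_maximal hS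
    have hsqH : ∀ p ∈ H, p * p ∈ K := fun p hp => by
      rw [show p * p = D (Q (P.π p.1)) from Prod.ext (hsq p.1) (by
        show p.2 * p.2 = _
        rw [hsq, show P.π p.2 = G (P.π p.1) from hp, hGQ])]
      exact hKD _
    have hcH : ∀ p ∈ H, ∀ q ∈ H, ∃ d ∈ K, p * q = q * p * d := fun p hp q hq => by
      refine ⟨_, hKD (polar Q (P.π p.1) (P.π q.1)), Prod.ext (hbr p.1 q.1) ?_⟩
      show p.2 * q.2 = q.2 * p.2 * _
      rw [hbr p.2 q.2, show P.π p.2 = G (P.π p.1) from hp, show P.π q.2 = G (P.π q.1) from hq]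
      congr 2
      simp only [polar, ← map_add, hGQ]
    have hhalf : ∀ p ∈ H, p ∈ K ∨ (z, 1) * p ∈ K := fun p hp => by
      by_contra hc
      push Not at hc
      have hD : ∀ a q, D a * q = q * D a := fun a q =>
        Prod.ext (eps_comm e a q.1).symm (eps_comm e a q.2).symm
      have hn : Subgroup.zpowers p ≤ Subgroup.normalizer (K : Set (E × E)) := by
        rw [Subgroup.zpowers_le]
        refine Subgroup.mem_normalizer_fintype (fun k hk => ?_)
        obtain ⟨a, ha⟩ : ∃ a, p * k = k * p * D a := ⟨polar Q (P.π p.1) (P.π k.1), Prod.ext (hbr p.1 k.1) (by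
          show p.2 * k.2 = k.2 * p.2 * _
          rw [hbr p.2 k.2, show P.π p.2 = G (P.π p.1) from hp, show P.π k.2 = G (P.π k.1) from hKH hk]
          congr 2
          simp only [polar, ← map_add, hGQ])⟩
        rw [ha, mul_assoc k p, ← hD a p, mul_assoc, mul_assoc, mul_inv_cancel, mul_one]
        exact mul_mem hk (hKD a)
      have hsup : (z, (1 : E)) ∈ Subgroup.zpowers p ⊔ K := by
        by_contra hn'
        refine hc.1 (hmax ⟨sup_le (Subgroup.zpowers_le.2 hp) hKH, fun a => Subgroup.mem_sup_right (hKD a), hn'⟩ le_sup_right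
          (Subgroup.mem_sup_left (Subgroup.mem_zpowers p)))
      rw [← SetLike.mem_coe, Subgroup.coe_mul_of_left_le_normalizer_right _ _ hn, Set.mem_mul] at hsup
      obtain ⟨_, ⟨i, rfl⟩, k, hk, he⟩ := hsup
      rcases Int.even_or_odd' i with ⟨j, rfl | rfl⟩
      · refine hKw (he ▸ mul_mem ?_ hk)
        show p ^ (2 * j) ∈ K
        rw [_root_.zpow_mul]; exact zpow_mem (by rw [show p ^ (2 : ℤ) = p * p from zpow_two p]; exact hsqH p hp) j
      · refine hc.2 ?_
        rw [show (z, (1 : E)) * p = p * (z, 1) from Prod.ext (by simp [e.central]) (by simp), ← he, ← mul_assoc]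
        refine mul_mem ?_ hk
        show p * p ^ (2 * j + 1) ∈ K
        rw [← _root_.zpow_one_add, show 1 + (2 * j + 1) = 2 * (j + 1) by ring, _root_.zpow_mul]
        exact zpow_mem (by rw [show p ^ (2 : ℤ) = p * p from zpow_two p]; exact hsqH p hp) (j + 1)
    have hone : ∀ y, ((1 : E), y) ∈ K → y = 1 := fun y hy => by
      have h := hKH hy
      rcases (P.zero_iff y).1 (by rw [show P.π y = G (P.π 1) from h, P.map_one, map_zero]) with h' | h'
      · exact h'
      · subst h'
        refine absurd ?_ hKw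
        convert mul_mem hy (hKD 1) using 1
        exact Prod.ext (by simp [D, eps_one]) (by simp [D, eps_one, e.sq])
    have hex : ∀ x, ∃ y, (x, y) ∈ K := fun x => by
      obtain ⟨y, hy⟩ := P.surj (G (P.π x))
      rcases hhalf (x, y) hy with h | h
      · exact ⟨y, h⟩
      · refine ⟨y * z, ?_⟩
        convert mul_mem h (hKD 1) using 1
        refine Prod.ext ?_ ?_
        · simp [D, eps_one, mul_assoc]; rw [e.central x, ← mul_assoc, e.sq, one_mul]
        · simp [D, eps_one]
    choose f hf using hex
    have huniq : ∀ x y, (x, y) ∈ K → y = f x := fun x y hy => by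
      have h := hone (y * (f x)⁻¹) (by simpa using mul_mem hy (inv_mem (hf x)))
      exact mul_inv_eq_one.1 h
    let fh : E →* E := MonoidHom.mk' f fun x y => (huniq _ _ (mul_mem (hf x) (hf y))).symm
    have hfinj : Function.Injective fh := by
      rw [injective_iff_map_eq_one]
      intro x hx
      have h := hf x
      rw [show f x = 1 from hx] at h
      have h' := hKH h
      have hπ : P.π x = 0 := by
        have e1 : P.π 1 = G (P.π x) := h'
        rw [P.map_one, hG] at e1
        exact (Matrix.mulVec_injective_iff_isUnit.2 (g : GL ι (ZMod 2)).isUnit)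
          (by rw [← e1, Matrix.mulVec_zero])
      rcases (P.zero_iff x).1 hπ with h'' | h''
      · exact h''
      · subst h''; exact absurd h hKw
    let φ : MulAut E := MulEquiv.ofBijective fh (Finite.injective_iff_bijective.mp hfinj)
    refine ⟨φ, Subtype.ext (Units.ext (Matrix.ext_iff_mulVec.2 fun v => ?_))⟩
    obtain ⟨x, rfl⟩ := P.surj v
    show (T₀.toHomUnits φ).1 *ᵥ P.π x = _
    rw [hT, ← hG]
    exact hKH (hf x)
  exact ⟨(QuotientGroup.quotientMulEquivOfEq hker.symm).trans (QuotientGroup.quotientKerEquivOfSurjective Φ hsurj)⟩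

/-- Coordinates exist. -/
theorem exists_coord [Finite E] (e : ExtraAut.Data z) {m : ℕ} (hcard : Nat.card E = 2 ^ (m + 1)) :
    ∃ P : Coord z (Fin m → ZMod 2), True := by
  haveI : Fact (Nat.Prime 2) := ⟨Nat.prime_two⟩
  have hcen : ∀ c, c ∈ Subgroup.center E ↔ c = 1 ∨ c = z := fun c =>
    ⟨fun hc => e.center c (Subgroup.mem_center_iff.1 hc), by
      rintro (rfl | rfl)
      · exact one_mem _
      · exact Subgroup.mem_center_iff.2 e.central⟩
  have hc2 : Nat.card (Subgroup.center E) = 2 := by
    rw [Nat.card_eq_two_iff]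
    exact ⟨1, ⟨z, (hcen z).2 (Or.inr rfl)⟩, fun h => e.ne_one (congrArg Subtype.val h).symm,
      Set.eq_univ_iff_forall.2 fun c => ((hcen c.1).1 c.2).imp (fun h => Subtype.ext h) fun h => Subtype.ext h⟩
  letI : CommGroup (E ⧸ Subgroup.center E) :=
    { (inferInstance : Group (E ⧸ Subgroup.center E)) with
      mul_comm := fun a b => by
        obtain ⟨x, rfl⟩ := QuotientGroup.mk_surjective a
        obtain ⟨y, rfl⟩ := QuotientGroup.mk_surjective b
        rw [← QuotientGroup.mk_mul, ← QuotientGroup.mk_mul, QuotientGroup.eq, hcen]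
        rcases e.bracket y x with h | h
        · left; rw [h]; group
        · right; rw [h]; group }
  have h2 : ∀ a : Additive (E ⧸ Subgroup.center E), 2 • a = 0 := fun a => by
    obtain ⟨x, hx⟩ := QuotientGroup.mk_surjective a.toMul
    rw [← ofMul_toMul a, ← hx, two_nsmul, ← ofMul_mul, ← QuotientGroup.mk_mul, ← ofMul_one]
    congr 1
    rw [QuotientGroup.eq_one_iff, hcen]
    exact e.square x
  letI := AddCommGroup.zmodModule h2
  haveI : Module.Finite (ZMod 2) (Additive (E ⧸ Subgroup.center E)) := Module.Finite.of_finite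
  have hfin : Module.finrank (ZMod 2) (Additive (E ⧸ Subgroup.center E)) = m := by
    have h := Module.natCard_eq_pow_finrank (K := ZMod 2) (V := Additive (E ⧸ Subgroup.center E))
    rw [Nat.card_zmod, Nat.card_congr Additive.toMul] at h
    have h' := Subgroup.card_eq_card_quotient_mul_card_subgroup (Subgroup.center E)
    rw [hc2, hcard, h, ← pow_succ] at h'
    have := Nat.pow_right_injective (le_refl 2) h'
    omega
  obtain ⟨L⟩ : Nonempty (Additive (E ⧸ Subgroup.center E) ≃ₗ[ZMod 2] (Fin m → ZMod 2)) :=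
    FiniteDimensional.nonempty_linearEquiv_of_finrank_eq (by rw [hfin, Module.finrank_fin_fun])
  exact ⟨{ π := fun x => L (Additive.ofMul (x : E ⧸ Subgroup.center E))
           map_mul := fun x y => by rw [QuotientGroup.mk_mul, ofMul_mul, map_add]
           surj := fun v => by
             obtain ⟨x, hx⟩ := QuotientGroup.mk_surjective (L.symm v).toMul
             exact ⟨x, by simp only [hx, ofMul_toMul, LinearEquiv.apply_symm_apply]⟩
           zero_iff := fun x => by
             rw [map_eq_zero_iff L L.injective, ← ofMul_one, Additive.ofMul.injective.eq_iff, QuotientGroup.eq_one_iff, hcen] }, trivial⟩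

/-- Change of coordinates. -/
def Coord.trans {W' : Type*} [AddCommGroup W'] [Module (ZMod 2) W'] (P : Coord z W) (L : W ≃ₗ[ZMod 2] W') : Coord z W' where
  π x := L (P.π x)
  map_mul x y := by rw [P.map_mul, map_add]
  surj v := by
    obtain ⟨x, hx⟩ := P.surj (L.symm v)
    exact ⟨x, show L (P.π x) = v by rw [hx, L.apply_symm_apply]⟩
  zero_iff x := by rw [map_eq_zero_iff L L.injective, P.zero_iff]

end CfsgLib.ExtraQuad
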